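import Cfsg.Agent.H550.KW.Five
import Cfsg.Agent.NotCT.Orders

/-!
# S4243, sporadic rows, part A: M11, M12, M22, M23, M24, J1, J3  (helper550)

All the primes `p ≥ 5` satisfy `p² ∤ |G|`.
-/

set_option autoImplicit false
set_option linter.unusedSectionVars false

open Subgroup

namespace Cfsg.Agent.H550.KW

open Cfsg.Agent.H146.KW Cfsg.Agent.NotCT

universe u v

variable {G : Type u} [Group G] [Finite G] [IsSimpleGroup G]

theorem Sep.of_equiv {G : Type u} {G' : Type v} [Group G] [Group G'] {p s : ℕ} (e : G ≃* G') (h : Sep G' p s) :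
    Sep G p s := by
  intro x y hx hy hxy
  refine h (e x) (e y) (by rw [MulEquiv.orderOf_eq, hx]) (by rw [MulEquiv.orderOf_eq, hy]) ?_
  rw [← map_mul, hxy, map_mul]

/-- a prime divisor of a factored number -/
theorem mem_of_dvd_prod {p : ℕ} (hp : p.Prime) {n : ℕ} (l : List ℕ) (k : ℕ) (hl : ∀ q ∈ l, q.Prime)
    (hn : n ∣ l.prod ^ k) (hd : p ∣ n) : p ∈ l := by
  obtain ⟨q, hq, hpq⟩ := (Prime.dvd_prod_iff hp.prime).1 (hp.dvd_of_dvd_pow (hd.trans hn))
  rwa [(Nat.prime_dvd_prime_iff_eq hp (hl q hq)).1 hpq]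

/-- the final criterion: `l` lists the primes divisors except `a`, `b` -/
theorem noKW_of_list {n : ℕ} (hn : Nat.card G = n) (a b : ℕ) (l : List ℕ) (k : ℕ)
    (hl : ∀ q ∈ a :: b :: l, q.Prime) (hab : a ≠ b) (hd : n ∣ (a :: b :: l).prod ^ k)
    (hK : ∀ q ∈ l, Kill G q) : NoKW G :=
  noKW_of_kill a b (hl a (by simp)) (hl b (by simp)) hab fun p hp hpn h2 h3 => by
    have h4 := mem_of_dvd_prod hp (a :: b :: l) k hl hd (hn ▸ hpn)
    rcases List.mem_cons.1 h4 with h4 | h4
    · exact absurd h4 h2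
    rcases List.mem_cons.1 h4 with h4 | h4
    · exact absurd h4 h3
    exact hK p h4

/-- all the primes in `l` divide the order at most once -/
theorem kills_one {n : ℕ} (hn : Nat.card G = n) (l : List ℕ) (hl : ∀ q ∈ l, q.Prime) (h : ∀ q ∈ l, ¬ q ^ 2 ∣ n) :
    ∀ q ∈ l, Kill G q := fun q hq => kill_one hn (hl q hq) (h q hq)

theorem noKW_m11 (h : Spor.IsoM11 G) : NoKW G :=
  noKW_of_list (Orders.m11 h) 2 3 [5, 11] 4 (by norm_num) (by norm_num) (by norm_num)
    (kills_one (Orders.m11 h) _ (by norm_num) (by norm_num))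

theorem noKW_m12 (h : Spor.IsoM12 G) : NoKW G :=
  noKW_of_list (Orders.m12 h) 2 3 [5, 11] 6 (by norm_num) (by norm_num) (by norm_num)
    (kills_one (Orders.m12 h) _ (by norm_num) (by norm_num))

theorem noKW_m22 (h : Spor.IsoM22 G) : NoKW G :=
  noKW_of_list (Orders.m22 h) 2 3 [5, 7, 11] 7 (by norm_num) (by norm_num) (by norm_num)
    (kills_one (Orders.m22 h) _ (by norm_num) (by norm_num))

theorem noKW_m23 (h : Spor.IsoM23 G) : NoKW G :=
  noKW_of_list (Orders.m23 h) 2 3 [5, 7, 11, 23] 7 (by norm_num) (by norm_num) (by norm_num)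
    (kills_one (Orders.m23 h) _ (by norm_num) (by norm_num))

theorem noKW_m24 (h : Spor.IsoM24 G) : NoKW G :=
  noKW_of_list (Orders.m24 h) 2 3 [5, 7, 11, 23] 10 (by norm_num) (by norm_num) (by norm_num)
    (kills_one (Orders.m24 h) _ (by norm_num) (by norm_num))

theorem noKW_j1 (h : Spor.IsoJ1 G) : NoKW G :=
  noKW_of_list (Orders.j1 h) 2 3 [5, 7, 11, 19] 3 (by norm_num) (by norm_num) (by norm_num)
    (kills_one (Orders.j1 h) _ (by norm_num) (by norm_num))

theorem noKW_j3 (h : Spor.IsoJ3 G) : NoKW G :=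
  noKW_of_list (Orders.j3 h) 2 3 [5, 17, 19] 7 (by norm_num) (by norm_num) (by norm_num)
    (kills_one (Orders.j3 h) _ (by norm_num) (by norm_num))

end Cfsg.Agent.H550.KW
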